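import Cfsg.Agent.H410.OZ.Tor
import Cfsg.Agent.LieClassical.SLGen

/-!
# S4842: `GL(E)` in classical groups (helper279)

* `GE A` : the isometry which acts on `E ≅ L` as `A`, on the opposite subspace (the dual of `L`) as the inverse of its
  transpose and trivially on `Mid Fr i`; `gl β z = GE (mu z)`;
* `mem_commutator_of_det` : a linear map of determinant one is a product of commutators, `|F| ≥ 3`.
-/

set_option autoImplicit false
set_option linter.unusedSectionVars false

namespace Cfsg.Agent.H279.VZ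

open CoxeterSystem Cfsg.Agent.ChevalleyStructure.CoxeterGeom Cfsg.Agent.Tits.Roots Cfsg.Agent.Nodes.TypeC
open Cfsg.Agent.Nodes Cfsg.Agent.Nodes.Comb Cfsg.Agent.Nodes.Reps Cfsg.Agent.Nodes.WittRoot Cfsg.Agent.Nodes.BNOf
open Cfsg.Agent.Nodes.WittRGD Cfsg.Agent.Nodes.RGDLib Cfsg.Agent.Nodes.WittAll
open Cfsg.Agent.TitsThree Cfsg.Agent.TitsThree.Siegel Cfsg.Agent.TitsThree.WittFrame
  Cfsg.Agent.TitsThree.WittWeyl Cfsg.Agent.TitsThree.FrameCN
open Cfsg.Agent.Nodes.StabComb Cfsg.Agent.Nodes.Bruhat Cfsg.Agent.Nodes.LeviDec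
open Cfsg.Agent.H62.PCFrame Cfsg.Agent.H62.PCWitt Cfsg.Agent.H985.VZ Module
open Cfsg.Agent.H410.OZ
open scoped commutatorElement

section comm

variable {F : Type*} [Field F] {ι : Type*} [Fintype ι] [DecidableEq ι]

/-- scaling of a coordinate -/
noncomputable def scE (i : ι) (a : Fˣ) : (ι → F) ≃ₗ[F] (ι → F) where
  toFun v := Function.update v i (a * v i)
  map_add' v w := by
    funext k
    by_cases h : k = i
    · subst h; simp [mul_add]
    · simp [h]
  map_smul' c v := by
    funext k
    by_cases h : k = i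
    · subst h; simp [mul_left_comm]
    · simp [h]
  invFun v := Function.update v i ((a⁻¹ : Fˣ) * v i)
  left_inv v := by
    funext k
    by_cases h : k = i
    · subst h; simp
    · simp [h]
  right_inv v := by
    funext k
    by_cases h : k = i
    · subst h; simp
    · simp [h]

theorem scE_apply (i : ι) (a : Fˣ) (v : ι → F) : scE i a v = Function.update v i (a * v i) := rfl

theorem comm_transvection {i j : ι} (hij : i ≠ j) (a : Fˣ) (c : F) :
    scE i a * (Matrix.SpecialLinearGroup.toLin' (Matrix.SpecialLinearGroup.transvection hij c)) =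
      (Matrix.SpecialLinearGroup.toLin' (Matrix.SpecialLinearGroup.transvection hij (a * c))) * scE i a := by
  refine LinearEquiv.ext fun v => ?_
  show scE i a (Matrix.SpecialLinearGroup.toLin' _ v) = Matrix.SpecialLinearGroup.toLin' _ (scE i a v)
  rw [Matrix.SpecialLinearGroup.toLin'_apply, Matrix.SpecialLinearGroup.toLin'_apply]
  have h1 : ∀ (c : F) (v : ι → F), (Matrix.SpecialLinearGroup.transvection hij c : Matrix.SpecialLinearGroup ι F).1.mulVec v =
      Function.update v i (v i + c * v j) := by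
    intro c v
    rw [Matrix.SpecialLinearGroup.transvection_coe]
    funext k
    by_cases h : k = i
    · subst h
      simp [Matrix.transvection, Matrix.add_mulVec, Matrix.single_mulVec, Function.update_self]
    · simp [Matrix.transvection, Matrix.add_mulVec, h, Matrix.single_mulVec]
  rw [Matrix.toLin'_apply, Matrix.toLin'_apply, h1, h1, scE_apply, scE_apply]
  funext k
  by_cases h : k = i
  · subst h
    simp [hij.symm]
    ring
  · simp [h]

theorem toLin_mem_commutator [Nontrivial ι] (hF : ∃ a : F, a ≠ 0 ∧ a ≠ 1) (s : Matrix.SpecialLinearGroup ι F) :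
    Matrix.SpecialLinearGroup.toLin' s ∈ commutator ((ι → F) ≃ₗ[F] (ι → F)) := by
  obtain ⟨a, ha0, ha1⟩ := hF
  refine Cfsg.Agent.LieClassical.SLGen.transvection_induction
    (fun s => Matrix.SpecialLinearGroup.toLin' s ∈ commutator ((ι → F) ≃ₗ[F] (ι → F))) ?_ ?_ s
  · intro i j hij c
    have h1 := comm_transvection hij (Units.mk0 a ha0) (c / (a - 1))
    have h2 : ⁅scE i (Units.mk0 a ha0), Matrix.SpecialLinearGroup.toLin'
        (Matrix.SpecialLinearGroup.transvection hij (c / (a - 1)))⁆ =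
        Matrix.SpecialLinearGroup.toLin' (Matrix.SpecialLinearGroup.transvection hij c) := by
      rw [commutatorElement_def, h1, mul_inv_cancel_right, ← map_inv, ← map_mul,
        Matrix.SpecialLinearGroup.transvection_inv]
      congr 1
      apply Subtype.ext
      rw [Matrix.SpecialLinearGroup.coe_mul, Matrix.SpecialLinearGroup.transvection_coe,
        Matrix.SpecialLinearGroup.transvection_coe, Matrix.SpecialLinearGroup.transvection_coe]
      show Matrix.transvection i j _ * Matrix.transvection i j _ = Matrix.transvection i j _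
      rw [Matrix.transvection_mul_transvection_same i j hij]
      congr 1
      have h3 : a - 1 ≠ 0 := sub_ne_zero.2 ha1
      rw [Units.val_mk0]
      field_simp
      ring
    rw [← h2]
    exact Subgroup.commutator_mem_commutator (Subgroup.mem_top _) (Subgroup.mem_top _)
  · intro A B hA hB
    rw [map_mul]
    exact mul_mem hA hB

theorem mem_commutator_of_det {L : Type*} [AddCommGroup L] [Module F L] (β : Basis ι F L) [Nontrivial ι]
    (hF : ∃ a : F, a ≠ 0 ∧ a ≠ 1) {A : L ≃ₗ[F] L} (hA : LinearMap.det (A : L →ₗ[F] L) = 1) :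
    A ∈ commutator (L ≃ₗ[F] L) := by
  let s : Matrix.SpecialLinearGroup ι F := ⟨LinearMap.toMatrix β β (A : L →ₗ[F] L), by
    rw [LinearMap.det_toMatrix]; exact hA⟩
  have h1 := toLin_mem_commutator hF s
  let e : ((ι → F) ≃ₗ[F] (ι → F)) ≃* (L ≃ₗ[F] L) :=
    { toFun := fun g => β.equivFun.trans (g.trans β.equivFun.symm)
      invFun := fun g => β.equivFun.symm.trans (g.trans β.equivFun)
      left_inv := fun g => by
        ext1 v
        show β.equivFun (β.equivFun.symm (g (β.equivFun (β.equivFun.symm v)))) = g v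
        rw [LinearEquiv.apply_symm_apply, LinearEquiv.apply_symm_apply]
      right_inv := fun g => by
        ext1 v
        show β.equivFun.symm (β.equivFun (g (β.equivFun.symm (β.equivFun v)))) = g v
        rw [LinearEquiv.symm_apply_apply, LinearEquiv.symm_apply_apply]
      map_mul' := fun g h => by
        ext1 v
        show β.equivFun.symm (g (h (β.equivFun v))) =
          β.equivFun.symm (g (β.equivFun (β.equivFun.symm (h (β.equivFun v)))))
        rw [LinearEquiv.apply_symm_apply] }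
  have h2 : e (Matrix.SpecialLinearGroup.toLin' s) ∈ (commutator ((ι → F) ≃ₗ[F] (ι → F))).map e.toMonoidHom :=
    ⟨_, h1, rfl⟩
  rw [commutator_def, Subgroup.map_commutator, Subgroup.map_top_of_surjective _ e.surjective] at h2
  have h3 : e (Matrix.SpecialLinearGroup.toLin' s) = A := by
    ext1 v
    show β.equivFun.symm (Matrix.SpecialLinearGroup.toLin' s (β.equivFun v)) = A v
    rw [Matrix.SpecialLinearGroup.toLin'_apply, Matrix.toLin'_apply]
    show β.equivFun.symm ((LinearMap.toMatrix β β (A : L →ₗ[F] L)).mulVec (β.repr v)) = A v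
    rw [LinearMap.toMatrix_mulVec_repr]
    exact β.equivFun.symm_apply_apply (A v)
  rwa [h3] at h2

end comm

section Frame

variable {F : Type*} [Field F] {V : Type*} [AddCommGroup V] [Module F V] {H : HForm F V} {n : ℕ}
  (Fr : Frame H (Fin n)) {i : Fin n} {L : Type*} [Field L] [Algebra F L] (β : Basis {k : Fin n // k ≤ i} F L)

/-- the inverse transpose -/
noncomputable def du (A : L ≃ₗ[F] L) (l : Dual F L) : Dual F L := l ∘ₗ (A.symm : L →ₗ[F] L)

theorem du_apply (A : L ≃ₗ[F] L) (l : Dual F L) (x : L) : du A l x = l (A.symm x) := rfl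

/-- the element as a linear map -/
noncomputable def geM (A : L ≃ₗ[F] L) : V →ₗ[F] V where
  toFun v := v + eE Fr β (A (xc Fr β v) - xc Fr β v) + fF Fr β (du A (lc Fr β v) - lc Fr β v)
  map_add' v w := by
    have e : du A (lc Fr β (v + w)) = du A (lc Fr β v) + du A (lc Fr β w) := by
      rw [map_add]; rfl
    have e1 : A (xc Fr β (v + w)) - xc Fr β (v + w) =
        (A (xc Fr β v) - xc Fr β v) + (A (xc Fr β w) - xc Fr β w) := by
      rw [map_add (xc Fr β), map_add A]; abel
    rw [e, e1, map_add (lc Fr β)]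
    have e2 : ∀ a b c d : Dual F L, a + b - (c + d) = (a - c) + (b - d) := fun a b c d => by abel
    rw [e2, map_add, map_add]
    abel
  map_smul' c v := by
    have e : du A (lc Fr β (c • v)) = c • du A (lc Fr β v) := by
      rw [map_smul]; rfl
    have e1 : A (xc Fr β (c • v)) - xc Fr β (c • v) = c • (A (xc Fr β v) - xc Fr β v) := by
      rw [map_smul (xc Fr β), map_smul A, smul_sub]
    have e2 : ∀ a b : Dual F L, c • a - c • b = c • (a - b) := fun a b => by
      ext y
      simp [mul_sub]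
    rw [e, e1, map_smul (lc Fr β), e2, map_smul, map_smul, RingHom.id_apply, smul_add, smul_add]

variable {Fr} {β}

theorem geM_apply (A : L ≃ₗ[F] L) (v : V) : geM Fr β A v =
    v + eE Fr β (A (xc Fr β v) - xc Fr β v) + fF Fr β (du A (lc Fr β v) - lc Fr β v) := rfl

theorem xc_geM (A : L ≃ₗ[F] L) (v : V) : xc Fr β (geM Fr β A v) = A (xc Fr β v) := by
  rw [geM_apply, map_add, map_add, xc_eE, xc_fF]
  abel

theorem lc_geM (A : L ≃ₗ[F] L) (v : V) : lc Fr β (geM Fr β A v) = du A (lc Fr β v) := by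
  rw [geM_apply, map_add, map_add, lc_eE, lc_fF]
  abel

theorem geM_mul (A B : L ≃ₗ[F] L) (v : V) : geM Fr β A (geM Fr β B v) = geM Fr β (A * B) v := by
  have h1 : geM Fr β A (geM Fr β B v) = geM Fr β B v + eE Fr β (A (B (xc Fr β v)) - B (xc Fr β v)) +
      fF Fr β (du A (du B (lc Fr β v)) - du B (lc Fr β v)) := by
    rw [geM_apply A, xc_geM, lc_geM]
  have h2 : du A (du B (lc Fr β v)) = du (A * B) (lc Fr β v) := rfl
  rw [h1, geM_apply B, geM_apply (A * B), h2]
  have h3 : (A * B) (xc Fr β v) - xc Fr β v = (B (xc Fr β v) - xc Fr β v) + (A (B (xc Fr β v)) - B (xc Fr β v)) := by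
    rw [LinearEquiv.mul_apply]; abel
  have h4 : du (A * B) (lc Fr β v) - lc Fr β v = (du B (lc Fr β v) - lc Fr β v) +
      (du (A * B) (lc Fr β v) - du B (lc Fr β v)) := by abel
  rw [h3, h4, map_add (eE Fr β), map_add (fF Fr β)]
  abel

theorem geM_one (v : V) : geM Fr β 1 v = v := by
  have h : du (1 : L ≃ₗ[F] L) (lc Fr β v) = lc Fr β v := rfl
  rw [geM_apply, h, LinearEquiv.coe_one, id, sub_self, sub_self, map_zero, map_zero, add_zero, add_zero]

variable (Fr) (β)

/-- **`GL(E)`** -/
noncomputable def GE : (L ≃ₗ[F] L) →* (V ≃ₗ[F] V) where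
  toFun A := LinearEquiv.ofLinearMap (geM Fr β A) (geM Fr β A⁻¹)
    (by
      ext v
      show geM Fr β A (geM Fr β A⁻¹ v) = v
      rw [geM_mul, mul_inv_cancel]
      exact geM_one v)
    (by
      ext v
      show geM Fr β A⁻¹ (geM Fr β A v) = v
      rw [geM_mul, inv_mul_cancel]
      exact geM_one v)
  map_one' := by
    ext v
    exact geM_one v
  map_mul' A B := by
    ext v
    exact (geM_mul A B v).symm

variable {Fr} {β}

theorem GE_apply (A : L ≃ₗ[F] L) (v : V) : GE Fr β A v = geM Fr β A v := rfl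

theorem GE_eE (A : L ≃ₗ[F] L) (x : L) : GE Fr β A (eE Fr β x) = eE Fr β (A x) := by
  rw [GE_apply, geM_apply, xc_eE, lc_eE]
  have : du A (0 : Dual F L) = 0 := rfl
  rw [this, sub_zero, map_zero, add_zero, ← map_add]
  congr 1
  abel

theorem GE_fF (A : L ≃ₗ[F] L) (l : Dual F L) : GE Fr β A (fF Fr β l) = fF Fr β (du A l) := by
  rw [GE_apply, geM_apply, xc_fF, lc_fF, map_zero, sub_zero, map_zero, add_zero, ← map_add]
  congr 1
  abel

theorem GE_Mid (A : L ≃ₗ[F] L) {v : V} (hv : v ∈ Mid Fr i) : GE Fr β A v = v := by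
  rw [GE_apply, geM_apply, xc_Mid hv, lc_Mid hv]
  have : du A (0 : Dual F L) = 0 := rfl
  rw [this, sub_zero, map_zero, sub_zero, map_zero, map_zero, add_zero, add_zero]

theorem isIso_GE (hσ : ∀ a, H.σ a = a) (A : L ≃ₗ[F] L) : H.IsIso (GE Fr β A) := by
  intro v w
  have h2 : H.ε * H.ε = 1 := by have := H.ε_mul; rwa [hσ] at this
  have hr : ∀ (v : V) (x : L), H.h v (eE Fr β x) = H.ε * lc Fr β v x := fun v x => by
    rw [H.swap (eE Fr β x) v, hσ, h_eE_left hσ]
  have hr' : ∀ (v : V) (l : Dual F L), H.h v (fF Fr β l) = l (xc Fr β v) := fun v l => by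
    rw [H.swap (fF Fr β l) v, hσ, h_fF_left hσ, ← mul_assoc, h2, one_mul]
  rw [GE_apply, GE_apply, geM_apply, geM_apply]
  simp only [H.add_left, H.add_right, h_eE_left hσ, h_fF_left hσ, hr, hr', lc_eE, lc_fF, xc_eE, xc_fF,
    LinearMap.zero_apply, mul_zero, map_zero, add_zero]
  simp only [LinearMap.sub_apply, du_apply, map_sub, LinearEquiv.symm_apply_apply]
  ring

/-- multiplication by a unit -/
noncomputable def mu (F : Type*) [Field F] {L : Type*} [Field L] [Algebra F L] : Lˣ →* (L ≃ₗ[F] L) where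
  toFun z := LinearEquiv.ofLinearMap (LinearMap.mulLeft F (z : L)) (LinearMap.mulLeft F ((z⁻¹ : Lˣ) : L))
    (by ext x; simp) (by ext x; simp)
  map_one' := by ext x; simp
  map_mul' z w := by ext x; simp [LinearEquiv.mul_apply, mul_assoc]

theorem mu_apply (z : Lˣ) (x : L) : mu F z x = z * x := rfl

theorem gl_eq (z : Lˣ) : gl Fr β z = GE Fr β (mu F z) := by
  refine LinearEquiv.ext fun v => ?_
  rw [gl_apply, glM_apply, GE_apply, geM_apply, mu_apply]
  have h1 : ((z : L) - 1) * xc Fr β v = z * xc Fr β v - xc Fr β v := by ring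
  rw [h1]
  rfl

theorem det_mu (z : Lˣ) : LinearMap.det ((mu F z : L ≃ₗ[F] L) : L →ₗ[F] L) = Algebra.norm F (z : L) := by
  rw [Algebra.norm_apply]
  rfl

/-- the diagonal map -/
noncomputable def dgB (β : Basis {k : Fin n // k ≤ i} F L) (c : {k : Fin n // k ≤ i} → Fˣ) : L ≃ₗ[F] L :=
  LinearEquiv.ofLinearMap (β.constr F fun k => (c k : F) • β k) (β.constr F fun k => ((c k)⁻¹ : Fˣ).1 • β k)
    (β.ext fun k => by simp [Basis.constr_basis]) (β.ext fun k => by simp [Basis.constr_basis])

theorem dgB_basis (c : {k : Fin n // k ≤ i} → Fˣ) (k : {k : Fin n // k ≤ i}) : dgB β c (β k) = (c k : F) • β k := by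
  show (β.constr F fun k => (c k : F) • β k) (β k) = _
  rw [Basis.constr_basis]

theorem dgB_symm_basis (c : {k : Fin n // k ≤ i} → Fˣ) (k : {k : Fin n // k ≤ i}) :
    (dgB β c).symm (β k) = ((c k)⁻¹ : Fˣ).1 • β k := by
  show (β.constr F fun k => ((c k)⁻¹ : Fˣ).1 • β k) (β k) = _
  rw [Basis.constr_basis]

theorem det_dgB (c : {k : Fin n // k ≤ i} → Fˣ) : LinearMap.det ((dgB β c : L ≃ₗ[F] L) : L →ₗ[F] L) = ∏ k, (c k : F) := by
  rw [← LinearMap.det_toMatrix β]
  have h1 : LinearMap.toMatrix β β ((dgB β c : L ≃ₗ[F] L) : L →ₗ[F] L) = Matrix.diagonal fun k => (c k : F) := by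
    ext k l
    rw [LinearMap.toMatrix_apply]
    show β.repr (dgB β c (β l)) k = _
    rw [dgB_basis, map_smul, β.repr_self, Finsupp.smul_apply, Matrix.diagonal_apply, Finsupp.single_apply, smul_eq_mul]
    by_cases h : k = l
    · subst h; simp
    · rw [if_neg (Ne.symm h), if_neg h, mul_zero]
  rw [h1, Matrix.det_diagonal]

/-- diagonal elements -/
theorem eq_GE_dgB {g : V ≃ₗ[F] V} {c : {k : Fin n // k ≤ i} → Fˣ} (h1 : ∀ k, g (Fr.b (k.1, true)) = (c k : F) • Fr.b (k.1, true))
    (h2 : ∀ k, g (Fr.b (k.1, false)) = ((c k)⁻¹ : Fˣ).1 • Fr.b (k.1, false)) (h3 : ∀ v ∈ Mid Fr i, g v = v) :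
    g = GE Fr β (dgB β c) := by
  refine LinearEquiv.ext fun v => ?_
  obtain ⟨x, hx, y, hy, w, hw, rfl⟩ := exists_decomp (Fr := Fr) i v
  obtain ⟨x, rfl⟩ := exists_eE β hx
  obtain ⟨l, rfl⟩ := exists_fF β hy
  rw [map_add, map_add, map_add, map_add, GE_eE, GE_fF, GE_Mid _ hw, h3 w hw]
  congr 1
  congr 1
  · rw [eE_apply, map_sum, eE_apply]
    have h4 : dgB β c x = ∑ k, (β.repr x k * c k) • β k := by
      conv_lhs => rw [← β.sum_repr x]
      rw [map_sum]
      refine Finset.sum_congr rfl fun k _ => ?_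
      rw [map_smul, dgB_basis, smul_smul]
    refine Finset.sum_congr rfl fun k _ => ?_
    rw [map_smul, h1, smul_smul, h4, β.repr_sum_self]
  · rw [fF_apply, map_sum, fF_apply]
    refine Finset.sum_congr rfl fun k _ => ?_
    rw [map_smul, h2, smul_smul, du_apply, dgB_symm_basis, map_smul, smul_eq_mul, mul_comm]

end Frame

end Cfsg.Agent.H279.VZ
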