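import Cfsg.Agent.H279.VZ.Ge
import Cfsg.Agent.H644.OZ.Dg
import Cfsg.Agent.H410.OZ.Fin
import Cfsg.Agent.H62.FrameSL

/-!
# S4842: diagonal conjugates of the elliptic elements (helper279)

* `dg_mem` : diagonal elements concentrated in two places, of determinant one, lie in `M.I`;
* `exists_conj` : for a diagonal isometry `sh` there is `a` in the Levi subgroup with `sh t sh⁻¹ = a t a⁻¹`,
  `t = gl z * D`.
-/

set_option autoImplicit false
set_option linter.unusedSectionVars false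

namespace Cfsg.Agent.H279.VZ

open CoxeterSystem Cfsg.Agent.ChevalleyStructure.CoxeterGeom Cfsg.Agent.Tits.Roots Cfsg.Agent.Nodes.TypeC
open Cfsg.Agent.Nodes Cfsg.Agent.Nodes.Comb Cfsg.Agent.Nodes.Reps Cfsg.Agent.Nodes.WittRoot Cfsg.Agent.Nodes.BNOf
open Cfsg.Agent.Nodes.WittRGD Cfsg.Agent.Nodes.RGDLib Cfsg.Agent.Nodes.WittAll
open Cfsg.Agent.TitsThree Cfsg.Agent.TitsThree.Siegel Cfsg.Agent.TitsThree.WittFrame
  Cfsg.Agent.TitsThree.WittWeyl Cfsg.Agent.TitsThree.FrameCN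
open Cfsg.Agent.Nodes.StabComb Cfsg.Agent.Nodes.Bruhat Cfsg.Agent.Nodes.LeviDec
open Cfsg.Agent.H62.PCFrame Cfsg.Agent.H62.PCWitt Cfsg.Agent.H62.FrameSL Cfsg.Agent.H985.VZ Module
open Cfsg.Agent.H410.OZ Cfsg.Agent.H644.OZ
open scoped MatrixGroups

section Frame

variable {F : Type*} [Field F] {V : Type*} [AddCommGroup V] [Module F V] {H : HForm F V} {n : ℕ}
  {Fr : Frame H (Fin n)}

/-- `diag (y, y⁻¹)` -/
def dS (y : Fˣ) : SL(2, F) := ⟨!![(y : F), 0; 0, ((y⁻¹ : Fˣ) : F)], by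
  rw [Matrix.det_fin_two_of, ← Units.val_mul, mul_inv_cancel]; simp⟩

theorem phiS_dS (hσ : ∀ a, H.σ a = a) {i j : Fin n} (hij : i ≠ j) (y : Fˣ) :
    phiS Fr hij (dS y) = dg Fr (lam (Function.update (Function.update 1 i y) j y⁻¹)) 1 := by
  refine LinearEquiv.ext fun v => ?_
  rw [phiS_apply, linS_apply, dg_apply, Units.val_one, one_smul]
  have e00 : (dS y).1 0 0 = (y : F) := rfl
  have e01 : (dS y).1 0 1 = 0 := rfl
  have e10 : (dS y).1 1 0 = 0 := rfl
  have e11 : (dS y).1 1 1 = ((y⁻¹ : Fˣ) : F) := rfl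
  set u : Fin n → Fˣ := Function.update (Function.update (1 : Fin n → Fˣ) i y) j y⁻¹ with hu
  have hi : u i = y := by rw [hu, Function.update_of_ne hij, Function.update_self]
  have hj : u j = y⁻¹ := Function.update_self _ _ _
  have h1 : ∑ x : Fin n × Bool, ((((lam u x : Fˣ) : F) - 1) * cf Fr x v) • Fr.b x =
      ∑ k : Fin n, ((((u k : F) - 1) * cf Fr (k, true) v) • Fr.b (k, true) +
        (((((u k)⁻¹ : Fˣ) : F) - 1) * cf Fr (k, false) v) • Fr.b (k, false)) := by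
    rw [Fintype.sum_prod_type]
    refine Finset.sum_congr rfl fun k _ => ?_
    rw [Fintype.sum_bool]
    rfl
  rw [h1, Finset.sum_eq_add i j hij]
  · rw [hi, hj]
    simp only [cf_apply, e00, e01, e10, e11, hσ, map_zero, inv_inv]
    have n1 : neg ((i, true) : Fin n × Bool) = (i, false) := rfl
    have n2 : neg ((i, false) : Fin n × Bool) = (i, true) := rfl
    have n3 : neg ((j, true) : Fin n × Bool) = (j, false) := rfl
    have n4 : neg ((j, false) : Fin n × Bool) = (j, true) := rfl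
    have t1 : ∀ k : Fin n, Fr.η (k, false) = 1 := fun k => rfl
    have t2 : ∀ k : Fin n, Fr.η (k, true) = H.ε := fun k => rfl
    rw [n1, n2, n3, n4, t1, t1, t2, t2, inv_one]
    module
  · intro k _ hk
    have h2 : u k = 1 := by
      rw [hu, Function.update_of_ne hk.2, Function.update_of_ne hk.1, Pi.one_apply]
    rw [h2]
    simp
  · intro h; exact absurd (Finset.mem_univ _) h
  · intro h; exact absurd (Finset.mem_univ _) h

variable {K : Type*} [Group K] {M : Model Fr K}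

theorem phiS_mem (M : Model Fr K) {i j : Fin n} (hij : i ≠ j) (S : SL(2, F)) : phiS Fr hij S ∈ M.I := by
  have h1 : (phiS Fr hij).range ≤ M.I := by
    rw [phiS_range]
    refine sup_le ?_ ?_
    · rintro _ ⟨t, rfl⟩
      exact M.hX _ _ _
    · rintro _ ⟨t, rfl⟩
      exact M.hX _ _ _
  exact h1 ⟨S, rfl⟩

theorem dg_mem (hσ : ∀ a, H.σ a = a) {i j : Fin n} (hij : i ≠ j) (y : Fˣ) :
    dg Fr (lam (Function.update (Function.update 1 i y) j y⁻¹)) 1 ∈ M.I := by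
  rw [← phiS_dS hσ hij]
  exact phiS_mem M hij _

theorem dg_lam_mid {i : Fin n} {l : Fin n → Fˣ} (hl : ∀ k, i < k → l k = 1) {v : V} (hv : v ∈ Mid Fr i) :
    dg Fr (lam l) 1 v = v := by
  rw [dg_apply, Units.val_one, one_smul, Finset.sum_eq_zero, add_zero]
  rintro ⟨k, s⟩ _
  by_cases hk : k ≤ i
  · have h1 : cf Fr (k, s) v = 0 := by
      rw [cf_apply]
      have h2 : H.h v (Fr.b (neg (k, s))) = 0 := hv k hk (!s)
      rw [h2, zero_mul]
    rw [h1, mul_zero, zero_smul]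
  · have h1 : lam l (k, s) = 1 := by
      unfold lam
      rw [hl k (not_le.1 hk)]
      simp
    rw [h1, Units.val_one, sub_self, zero_mul, zero_smul]

end Frame

section Model

variable {F : Type*} [Field F] [Finite F] {V : Type*} [AddCommGroup V] [Module F V] [Finite V] {H : HForm F V} {n : ℕ}
  {Fr : Frame H (Fin n)} {K : Type*} [Group K] {M : Model Fr K}
  {W : Type*} [Group W] {cs : CoxeterSystem (CoxeterMatrix.B n) W} {p : ℕ} [Fact p.Prime]
  [CharP F p] (hA : AmbT Fr p M.I) {p0 : Fr.Adm} (hp0 : p0.c ≠ 0) (hn : 0 < n)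
  {i : Fin n} {L : Type*} [Field L] [Finite L] [Algebra F L] {β : Basis {k : Fin n // k ≤ i} F L}
  {s : ℕ} {D : V ≃ₗ[F] V} {z : Lˣ}

theorem gl_comm' (hD : Comp Fr i s D) (z : Lˣ) : gl Fr β z * D = D * gl Fr β z := by
  ext v
  obtain ⟨x, hx, y, hy, w, hw, rfl⟩ := exists_decomp (Fr := Fr) i v
  obtain ⟨x, rfl⟩ := exists_eE β hx
  obtain ⟨l, rfl⟩ := exists_fF β hy
  change gl Fr β z (D (eE Fr β x + fF Fr β l + w)) = D (gl Fr β z (eE Fr β x + fF Fr β l + w))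
  simp only [map_add, hD.eE, hD.fF, gl_eE, gl_fF, gl_Mid _ hw, gl_Mid _ (hD.mid hw)]

/-- **the element of `M.I`** -/
theorem exists_w (hσ : ∀ a, H.σ a = a) (hGE : ∀ A : L ≃ₗ[F] L, LinearMap.det (A : L →ₗ[F] L) = 1 → GE Fr β A ∈ M.I)
    (hi : (i : ℕ) + 1 = n ∨ (i : ℕ) + 2 = n) (l : Fin n → Fˣ) :
    ∃ w : Lˣ, dg Fr (lam l) 1 * (gl Fr β w)⁻¹ ∈ M.I := by
  have hfd : FiniteDimensional F L := Module.Finite.of_finite
  -- the torus element
  obtain ⟨m, hm, hmk⟩ : ∃ m : Fin n → Fˣ, dg Fr (lam m) 1 ∈ M.I ∧ ∀ k, i < k → m k = l k := by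
    rcases hi with hi | hi
    · refine ⟨1, ?_, fun k hk => ?_⟩
      · rw [lam_one, dg_one]
        exact M.I.one_mem
      · exfalso
        have := k.2
        rw [Fin.lt_def] at hk
        omega
    · set j : Fin n := ⟨(i : ℕ) + 1, by omega⟩ with hj
      have hij : i ≠ j := by
        intro h
        have := congrArg Fin.val h
        simp [hj] at this
      refine ⟨Function.update (Function.update 1 i (l j)⁻¹) j ((l j)⁻¹)⁻¹, dg_mem hσ hij _, fun k hk => ?_⟩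
      have hkj : k = j := by
        apply Fin.ext
        have := k.2
        rw [Fin.lt_def] at hk
        simp only [hj]
        omega
      rw [hkj, Function.update_self, inv_inv]
  -- the remaining diagonal element
  let c : {k : Fin n // k ≤ i} → Fˣ := fun k => (m k.1)⁻¹ * l k.1
  have hlm : dg Fr (lam l) 1 = dg Fr (lam m) 1 * dg Fr (lam (m⁻¹ * l)) 1 := by
    have h1 := dg_mul Fr (lam m) (lam (m⁻¹ * l)) 1 1
    rw [← lam_mul, mul_inv_cancel_left, one_mul] at h1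
    exact h1
  have hg : dg Fr (lam (m⁻¹ * l)) 1 = GE Fr β (dgB β c) := by
    refine eq_GE_dgB (fun k => ?_) (fun k => ?_) (fun v hv => ?_)
    · exact dg_b Fr _ _ _
    · exact dg_b Fr _ _ _
    · refine dg_lam_mid (fun k hk => ?_) hv
      rw [Pi.mul_apply, Pi.inv_apply, hmk k hk, inv_mul_cancel]
  -- the norm
  obtain ⟨w0, hw0⟩ := FiniteField.norm_surjective F L (∏ k, (c k : F))
  have hne : (∏ k, (c k : F)) ≠ 0 := Finset.prod_ne_zero_iff.2 fun k _ => (c k).ne_zero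
  have hw00 : w0 ≠ 0 := by
    rintro rfl
    rw [Algebra.norm_zero] at hw0
    exact hne hw0.symm
  refine ⟨Units.mk0 w0 hw00, ?_⟩
  have h1 : dg Fr (lam l) 1 * (gl Fr β (Units.mk0 w0 hw00))⁻¹ =
      dg Fr (lam m) 1 * GE Fr β (dgB β c * (mu F (Units.mk0 w0 hw00))⁻¹) := by
    rw [hlm, hg, gl_eq, map_mul, map_inv, mul_assoc]
  rw [h1]
  refine M.I.mul_mem hm (hGE _ ?_)
  have h2 : ∀ A B : L ≃ₗ[F] L, LinearMap.det ((A * B : L ≃ₗ[F] L) : L →ₗ[F] L) =
      LinearMap.det (A : L →ₗ[F] L) * LinearMap.det (B : L →ₗ[F] L) := fun A B => by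
    rw [← LinearMap.det_comp]
    rfl
  have h3 : LinearMap.det (((mu F (Units.mk0 w0 hw00))⁻¹ : L ≃ₗ[F] L) : L →ₗ[F] L) *
      LinearMap.det ((mu F (Units.mk0 w0 hw00) : L ≃ₗ[F] L) : L →ₗ[F] L) = 1 := by
    rw [← h2, inv_mul_cancel]
    exact LinearMap.det_id
  rw [det_mu, Units.val_mk0, hw0] at h3
  rw [h2, det_dgB, mul_comm]
  exact h3

include hA hp0 hn

/-- **the class of `t` is invariant under diagonal isometries** -/
theorem exists_conj (hσ : ∀ a, H.σ a = a)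
    (hGE : ∀ A : L ≃ₗ[F] L, LinearMap.det (A : L →ₗ[F] L) = 1 → GE Fr β A ∈ M.I)
    (hi : (i : ℕ) + 1 = n ∨ (i : ℕ) + 2 = n) (hD : Comp Fr i s D) (ht : gl Fr β z * D ∈ M.I) (l : Fin n → Fˣ) :
    ∃ a ∈ LJ cs (isCartan n) (WittModel.T M) (WittModel.X M) {i}ᶜ,
      ∀ h : dg Fr (lam l) 1 * (gl Fr β z * D) * (dg Fr (lam l) 1)⁻¹ ∈ M.I,
        M.φ ⟨_, h⟩ = a * M.φ ⟨_, ht⟩ * a⁻¹ := by
  obtain ⟨w, hw⟩ := exists_w (M := M) hσ hGE hi l
  refine ⟨M.φ ⟨_, hw⟩, mem_LJ_of hA hp0 hn ?_ ?_, fun h => ?_⟩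
  · intro x hx
    show dg Fr (lam l) 1 ((gl Fr β w)⁻¹ x) ∈ _
    refine mono_maps (mono_dg Fr _ _) _ ?_
    obtain ⟨y, rfl⟩ := exists_eE β hx
    rw [← map_inv, gl_eE]
    exact eE_mem _
  · intro x hx
    show dg Fr (lam l) 1 ((gl Fr β w)⁻¹ x) ∈ _
    refine mono_maps (mono_dg Fr _ _) _ ?_
    obtain ⟨y, rfl⟩ := exists_fF β hx
    rw [← map_inv, gl_fF]
    exact fF_mem _
  · have h1 : gl Fr β w * (gl Fr β z * D) = gl Fr β z * D * gl Fr β w := by
      rw [← mul_assoc, ← map_mul, mul_comm w z, map_mul, mul_assoc, gl_comm' hD w, mul_assoc]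
    have h2 : (gl Fr β w)⁻¹ * (gl Fr β z * D) * gl Fr β w = gl Fr β z * D := by
      rw [mul_assoc, ← h1, inv_mul_cancel_left]
    have h3 : (⟨_, h⟩ : M.I) = ⟨_, hw⟩ * ⟨_, ht⟩ * ⟨_, hw⟩⁻¹ := by
      apply Subtype.ext
      show dg Fr (lam l) 1 * (gl Fr β z * D) * (dg Fr (lam l) 1)⁻¹ =
        dg Fr (lam l) 1 * (gl Fr β w)⁻¹ * (gl Fr β z * D) * (dg Fr (lam l) 1 * (gl Fr β w)⁻¹)⁻¹
      rw [mul_inv_rev, inv_inv]
      conv_lhs => rw [← h2]
      group
    rw [h3, map_mul, map_mul, map_inv]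

end Model

end Cfsg.Agent.H279.VZ
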